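import Mathlib
import Cfsg.Agent.Lib.Mit.Basic
import Cfsg.Agent.Lib.Comp.FStar

/-! Bloom's theorem, part A: the socle and the index of the socle.  See `plans/MITCHELL.md`. -/

set_option autoImplicit false

namespace CfsgLib.Mit.Bloom

open Matrix Cfsg Cfsg.Geo CfsgLib.Asch
open scoped MatrixGroups commutatorElement

variable {G : Type*} [Group G] {F : Type*} [Field F] {π : G →* PGL(3, F)}
  {P : Subgroup (GL (Fin 3) F)}

/-- the elements of `G` represented by an element of `P` -/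
def im (π : G →* PGL(3, F)) (P : Subgroup (GL (Fin 3) F)) : Subgroup G :=
  (P.map ProjGenLinGroup.mk).comap π

theorem mem_im {g : G} : g ∈ im π P ↔ ∃ x ∈ P, ProjGenLinGroup.mk x = π g := Iff.rfl

theorem range_barπ (P : Subgroup (GL (Fin 3) F)) : (barπ P).range = P.map ProjGenLinGroup.mk := by
  ext y
  constructor
  · rintro ⟨z, rfl⟩
    obtain ⟨x, rfl⟩ := QuotientGroup.mk_surjective z
    exact ⟨x, x.2, rfl⟩
  · rintro ⟨x, hx, rfl⟩
    exact ⟨QuotientGroup.mk ⟨x, hx⟩, rfl⟩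

theorem nonempty_im_equiv (hπ : Function.Injective π)
    (hP : P.map ProjGenLinGroup.mk ≤ π.range) : Nonempty (im π P ≃* Bar P) :=
  ⟨((im π P).equivMapOfInjective π hπ).trans
    ((MulEquiv.subgroupCongr ((Subgroup.map_comap_eq_self hP).trans (range_barπ P).symm)).trans
      (MonoidHom.ofInjective (barπ_injective P)).symm)⟩

theorem mk_mem_map_of_mem_sup {x : GL (Fin 3) F} (hx : x ∈ P ⊔ scalars (Fin 3) F) :
    ProjGenLinGroup.mk x ∈ P.map ProjGenLinGroup.mk := by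
  have : P ⊔ scalars (Fin 3) F ≤ (P.map ProjGenLinGroup.mk).comap ProjGenLinGroup.mk :=
    sup_le (Subgroup.le_comap_map _ _) fun y hy => by
      rw [Subgroup.mem_comap, mk_eq_one_iff.2 hy]
      exact one_mem _
  exact this hx

theorem mem_im_of_mem_sup {g : G} {x : GL (Fin 3) F} (e : π g = ProjGenLinGroup.mk x)
    (hx : x ∈ P ⊔ scalars (Fin 3) F) : g ∈ im π P := by
  rw [im, Subgroup.mem_comap, e]
  exact mk_mem_map_of_mem_sup hx

/-- a group without elementary abelian normal subgroups has a simple component -/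
theorem exists_simple [Finite G] [Nontrivial G]
    (hN : ∀ N : Subgroup G, N.Normal → IsMulCommutative N → (∃ r : ℕ, r.Prime ∧ ∀ x ∈ N, x ^ r = 1) →
      N = ⊥) :
    ∃ L : Subgroup G, IsSimpleGroup L ∧ ¬ IsMulCommutative L ∧ ⁅L, L⁆ = L ∧
      ∀ g, L.map (MulAut.conj g).toMonoidHom = L ∨ ⁅L.map (MulAut.conj g).toMonoidHom, L⁆ = ⊥ := by
  have hF : fittingSubgroup G = ⊥ := by
    by_contra h
    have := Core.fittingSubgroup_normal G
    have := Core.isSolvable_fittingSubgroup G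
    obtain ⟨p, N, hp, hn, hne, -, he, -⟩ := Core.exists_elementaryAbelian_minimal_normal_le h
    exact hne (hN N hn he.1 ⟨p, hp, he.2⟩)
  rcases Comp.exists_comp_or_fit_not_le (C := (⊤ : Subgroup G)) (Z := ⊥)
    (inferInstance : (⊤ : Subgroup G).Normal).isSubnormal bot_le
    (fun h => top_ne_bot (le_bot_iff.1 h)) with ⟨L, hL, -, -⟩ | h
  · have hZ : Subgroup.center L = ⊥ := by
      rw [eq_bot_iff]
      intro z hz
      have : (z : G) ∈ fittingSubgroup G := Comp.comp_inf_centralizer_le_fit hL ⟨z.2, fun y hy =>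
        congrArg Subtype.val (Subgroup.mem_center_iff.1 hz ⟨y, hy⟩)⟩
      rw [hF] at this
      exact Subtype.ext this
    have hs := hL.2.2
    refine ⟨L, ((QuotientGroup.quotientMulEquivOfEq hZ).trans
      QuotientGroup.quotientBot).symm.isSimpleGroup, fun hc => ?_, Comp.comp_perfect hL, fun g => ?_⟩
    · exact Comp.comp_not_le_centralizer hL fun x hx y hy =>
        congrArg Subtype.val (hc.is_comm.comm (⟨y, hy⟩ : L) ⟨x, hx⟩)
    · by_cases e : L.map (MulAut.conj g).toMonoidHom = L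
      · exact Or.inl e
      · exact Or.inr (Comp.comp_commutator_eq_bot_of_ne (Comp.comp_map_conj hL g) hL e)
  · exact absurd (by rw [hF]; exact inf_le_left) h

theorem exists_scalar_of_mk_eq {x y : GL (Fin 3) F}
    (h : ProjGenLinGroup.mk x = ProjGenLinGroup.mk y) : ∃ z ∈ scalars (Fin 3) F, y = x * z :=
  ⟨x⁻¹ * y, mk_eq_one_iff.1 (by rw [map_mul, map_inv, h, inv_mul_cancel]), by group⟩

/-- the quasisimple irreducible normal subgroup of the preimage -/
theorem exists_core [Finite F] (h2 : (2 : F) ≠ 0) (hπ : Function.Injective π) {L : Subgroup G}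
    (hs : IsSimpleGroup L) (hn : ¬ IsMulCommutative L) (hp : ⁅L, L⁆ = L)
    (hL : ∀ g, L.map (MulAut.conj g).toMonoidHom = L ∨
      ⁅L.map (MulAut.conj g).toMonoidHom, L⁆ = ⊥) :
    ∃ P : Subgroup (GL (Fin 3) F), QS P ∧ P.map ProjGenLinGroup.mk ≤ π.range ∧
      ∀ g x, π g = ProjGenLinGroup.mk x → ∀ y ∈ P, x * y * x⁻¹ ∈ P := by
  set X : Subgroup (GL (Fin 3) F) := (L.map π).comap ProjGenLinGroup.mk with hX
  have hXm : X.map ProjGenLinGroup.mk = L.map π :=
    Subgroup.map_comap_eq_self_of_surjective ProjGenLinGroup.mk_surjective _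
  have hPm : (⁅X, X⁆ : Subgroup _).map ProjGenLinGroup.mk = L.map π := by
    rw [Subgroup.map_commutator, hXm, ← Subgroup.map_commutator, hp]
  set P : Subgroup (GL (Fin 3) F) := ⁅X, X⁆ with hP
  have hle : P.map ProjGenLinGroup.mk ≤ π.range := hPm ▸ Subgroup.map_le_range _ _
  have him : im π P = L := by rw [im, hPm, Subgroup.comap_map_eq_self_of_injective hπ]
  obtain ⟨e⟩ := nonempty_im_equiv hπ hle
  have e' : L ≃* Bar P := (MulEquiv.subgroupCongr him.symm).trans e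
  have hdec : ∀ a ∈ X, ∃ b ∈ P, ∃ z ∈ scalars (Fin 3) F, a = b * z := fun a ha => by
    have : ProjGenLinGroup.mk a ∈ P.map ProjGenLinGroup.mk := hPm ▸ ha
    obtain ⟨b, hb, e⟩ := this
    exact ⟨b, hb, exists_scalar_of_mk_eq e⟩
  have hperf : ⁅P, P⁆ = P := by
    refine le_antisymm (Subgroup.commutator_le_self P) ?_
    refine Subgroup.commutator_le.2 fun a ha a' ha' => ?_
    obtain ⟨b, hb, z, hz, rfl⟩ := hdec a ha
    obtain ⟨b', hb', z', hz', rfl⟩ := hdec a' ha'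
    have : ⁅b * z, b' * z'⁆ = ⁅b, b'⁆ := by
      simp only [commutatorElement_def, _root_.mul_inv_rev]
      have h1 := mul_comm_of_mem_scalars hz
      have h2 := mul_comm_of_mem_scalars hz'
      calc b * z * (b' * z') * (z⁻¹ * b⁻¹) * (z'⁻¹ * b'⁻¹)
          = b * (z * (b' * z')) * z⁻¹ * b⁻¹ * z'⁻¹ * b'⁻¹ := by group
        _ = b * b' * (z' * b⁻¹) * z'⁻¹ * b'⁻¹ := by rw [h1]; group
        _ = b * b' * b⁻¹ * b'⁻¹ := by rw [h2]; group
    rw [this]
    exact Subgroup.commutator_mem_commutator hb hb'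
  have hQ : QS P := qs_of_simple h2 hperf e'.symm.isSimpleGroup
    fun h => hn (isMulCommutative_of_equiv e' h)
  refine ⟨P, hQ, hle, fun g x hx y hy => ?_⟩
  rcases hL g with h | h
  · have hXx : X.map (MulAut.conj x).toMonoidHom ≤ X := by
      rintro _ ⟨a, ⟨l, hl, el⟩, rfl⟩
      refine ⟨g * l * g⁻¹, h.le ⟨l, hl, rfl⟩, ?_⟩
      simp [hx, el]
    have : P.map (MulAut.conj x).toMonoidHom ≤ P := by
      rw [hP, Subgroup.map_commutator]
      exact Subgroup.commutator_mono hXx hXx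
    exact this ⟨y, hy, rfl⟩
  · exfalso
    refine not_comm_of_bar hQ.nonab fun a ha b _ => mul_comm_of_mem_scalars ?_ b
    have h1 : x * a * x⁻¹ ∈ scalars (Fin 3) F := hQ.mem_scalars_of_comm fun c hc => by
      obtain ⟨l, hl, el⟩ : ProjGenLinGroup.mk a ∈ L.map π := hPm ▸ ⟨a, ha, rfl⟩
      obtain ⟨m, hm, em⟩ : ProjGenLinGroup.mk c ∈ L.map π := hPm ▸ ⟨c, hc, rfl⟩
      have h0 : ⁅g * l * g⁻¹, m⁆ ∈ (⊥ : Subgroup G) :=
        h ▸ Subgroup.commutator_mem_commutator ⟨l, hl, rfl⟩ hm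
      rw [← mk_eq_one_iff]
      have := congrArg π (Subgroup.mem_bot.1 h0)
      simpa [commutatorElement_def, hx, el, em] using this
    exact conj_mem_scalars.1 h1

/-- index one or three -/
theorem idx3 [Finite G] {N : Subgroup G} {e : ℕ} (M : Subgroup (G × Fˣ))
    (tot : ∀ g, ∃ c, (g, c) ∈ M) (pw : ∀ g c, (g, c) ∈ M → c ^ (3 * e) = 1)
    (mem : ∀ g c, (g, c) ∈ M → c ^ e = 1 → g ∈ N) (one : ∀ w, w ^ 3 = 1 → ((1 : G), w) ∈ M) :
    N = ⊤ ∨ (N.index = 3 ∧ 3 ∣ e ∧ ∃ c : Fˣ, c ^ (3 * e) = 1 ∧ c ^ e ≠ 1) := by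
  by_cases hN : N = ⊤
  · exact Or.inl hN
  right
  obtain ⟨g, hg⟩ : ∃ g, g ∉ N := by
    by_contra h
    push Not at h
    exact hN (eq_top_iff.2 fun g _ => h g)
  obtain ⟨c, hc⟩ := tot g
  have hce : c ^ e ≠ 1 := fun h => hg (mem g c hc h)
  have h3 : (c ^ e) ^ 3 = 1 := by rw [← pow_mul, mul_comm, pw g c hc]
  have hdvd : 3 ∣ e := by
    by_contra hd
    -- `w = (c^e)^(2e)` is a cube root of unity with `(c w)^e = 1`
    have hw : ((c ^ e) ^ (2 * e)) ^ 3 = 1 := by rw [← pow_mul, mul_comm, pow_mul, h3, one_pow]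
    have h1 : (g, c * (c ^ e) ^ (2 * e)) ∈ M := by simpa using M.mul_mem hc (one _ hw)
    refine hg (mem _ _ h1 ?_)
    obtain ⟨k, hk⟩ : 3 ∣ 1 + 2 * e * e := by
      have : e % 3 = 1 ∨ e % 3 = 2 := by omega
      rcases this with h | h <;> simp [Nat.dvd_iff_mod_eq_zero, Nat.add_mod, Nat.mul_mod, h]
    calc (c * (c ^ e) ^ (2 * e)) ^ e = (c ^ e) ^ (1 + 2 * e * e) := by
          rw [mul_pow, pow_add, pow_one, ← pow_mul (c ^ e)]
      _ = 1 := by rw [hk, pow_mul, h3, one_pow]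
  refine ⟨?_, hdvd, c, pw g c hc, hce⟩
  -- the homomorphism `(g, c) ↦ c ^ e` on `M`
  let f : M →* Fˣ := (powMonoidHom e).comp ((MonoidHom.snd G Fˣ).comp M.subtype)
  let p : M →* G := (MonoidHom.fst G Fˣ).comp M.subtype
  have hp : Function.Surjective p := fun g => by
    obtain ⟨c, hc⟩ := tot g
    exact ⟨⟨_, hc⟩, rfl⟩
  have hk : f.ker.map p ≤ N := by
    rintro _ ⟨⟨⟨g, c⟩, hgc⟩, h, rfl⟩
    exact mem g c hgc h
  have hr : f.range ≤ rootsOfUnity 3 F := by
    rintro _ ⟨⟨⟨g, c⟩, hgc⟩, rfl⟩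
    rw [mem_rootsOfUnity]
    change (c ^ e) ^ 3 = 1
    rw [← pow_mul, mul_comm, pw g c hgc]
  have hcard : Nat.card (rootsOfUnity 3 F) ∣ 3 := by
    have hc := rootsOfUnity.isCyclic F 3
    rw [← IsCyclic.exponent_eq_card]
    exact Monoid.exponent_dvd_of_forall_pow_eq_one fun x => Subtype.ext x.2
  have h1 : N.index ∣ 3 :=
    (Subgroup.index_dvd_of_le hk).trans ((Subgroup.index_map_dvd _ hp).trans (by
      rw [Subgroup.index_ker]
      exact (Subgroup.card_dvd_of_le hr).trans hcard))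
  rcases (Nat.dvd_prime Nat.prime_three).1 h1 with h | h
  · exact absurd (Subgroup.index_eq_one.1 h) hN
  · exact h

/-- the degree of the field over the subfield is divisible by three -/
theorem three_dvd_degree [Finite F] {Q m e k : ℕ} (hq : Nat.card F = Q ^ m) (hQ : Q = e * k + 1)
    (he : 3 ∣ e) (hk : ¬ 3 ∣ k) {c : Fˣ} (h3 : c ^ (3 * e) = 1) (h1 : c ^ e ≠ 1) : 3 ∣ m := by
  have ho : orderOf (c ^ e) = 3 :=
    haveI := Fact.mk Nat.prime_three
    orderOf_eq_prime (by rw [← pow_mul, mul_comm, h3]) h1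
  have hc : c ^ (Q ^ m - 1) = 1 := by
    rw [← hq, ← Nat.card_units]
    exact pow_card_eq_one'
  have hg : ∀ n, ∃ s, Q ^ n = e * k * s + 1 ∧ s % 3 = n % 3 := by
    intro n
    induction n with
    | zero => exact ⟨0, by simp, rfl⟩
    | succ n ih =>
      obtain ⟨s, hs, hs3⟩ := ih
      obtain ⟨d, rfl⟩ := he
      refine ⟨s + 1 + 3 * (d * k * s), by rw [pow_succ, hs, hQ]; ring, by omega⟩
  obtain ⟨s, hs, hs3⟩ := hg m
  rw [hs, Nat.add_sub_cancel, mul_assoc, pow_mul, ← orderOf_dvd_iff_pow_eq_one, ho] at hc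
  have := (Nat.Prime.dvd_mul Nat.prime_three).1 hc
  omega

/-- index at most two -/
theorem idx2 {N : Subgroup G} (h : ∀ a b, a ∈ N ∨ b ∈ N ∨ a⁻¹ * b ∈ N) : N = ⊤ ∨ N.index = 2 := by
  by_cases hN : N = ⊤
  · exact Or.inl hN
  right
  obtain ⟨g, hg⟩ : ∃ g, g ∉ N := by
    by_contra h
    push Not at h
    exact hN (eq_top_iff.2 fun g _ => h g)
  rw [Subgroup.index_eq_two_iff]
  refine ⟨g, fun b => ?_⟩
  by_cases hb : b ∈ N
  · exact Or.inr ⟨hb, fun h' => hg (by simpa using N.mul_mem (N.inv_mem hb) h')⟩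
  · rcases h b⁻¹ g with h' | h' | h'
    · exact absurd (by simpa using h') hb
    · exact absurd h' hg
    · exact Or.inl ⟨by simpa using h', hb⟩

end CfsgLib.Mit.Bloom
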