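import Mathlib
import Cfsg.Agent.Lib.Mit.Basic
import Cfsg.Agent.Lib.OrthE.Compl

/-! The special orthogonal group in dimension three is `PGL₂`.  See `plans/MITCHELL.md`. -/

set_option autoImplicit false

namespace CfsgLib.Mit

open Matrix Cfsg Cfsg.Geo CfsgLib.Asch
open scoped MatrixGroups commutatorElement

universe u

variable {F : Type*} [Field F]

/-- the action of `GL₂` on binary quadratic forms, twisted to determinant one -/
noncomputable def adj2 (A : Matrix (Fin 2) (Fin 2) F) : M3 F :=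
  A.det⁻¹ • !![A 0 0 ^ 2, 2 * A 0 0 * A 0 1, A 0 1 ^ 2;
    A 0 0 * A 1 0, A 0 0 * A 1 1 + A 0 1 * A 1 0, A 0 1 * A 1 1;
    A 1 0 ^ 2, 2 * A 1 0 * A 1 1, A 1 1 ^ 2]

/-- the conic `y² = x z` -/
def conicQ (v : V3 F) : F := v 1 ^ 2 - v 0 * v 2

namespace Conic

/-- the symmetric square -/
def sym2 (A : Matrix (Fin 2) (Fin 2) F) : M3 F :=
  !![A 0 0 ^ 2, 2 * A 0 0 * A 0 1, A 0 1 ^ 2;
    A 0 0 * A 1 0, A 0 0 * A 1 1 + A 0 1 * A 1 0, A 0 1 * A 1 1;
    A 1 0 ^ 2, 2 * A 1 0 * A 1 1, A 1 1 ^ 2]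

theorem adj2_eq (A : Matrix (Fin 2) (Fin 2) F) : adj2 A = A.det⁻¹ • sym2 A := rfl

theorem sym2_mul (A B : Matrix (Fin 2) (Fin 2) F) : sym2 (A * B) = sym2 A * sym2 B := by
  ext i j
  fin_cases i <;> fin_cases j <;> simp [sym2, Matrix.mul_apply, Fin.sum_univ_succ] <;> ring

theorem det_sym2 (A : Matrix (Fin 2) (Fin 2) F) : (sym2 A).det = A.det ^ 3 := by
  simp [sym2, det_fin_three, det_fin_two]
  ring

theorem sym2_mulVec (A : Matrix (Fin 2) (Fin 2) F) (v : V3 F) :
    sym2 A *ᵥ v = ![A 0 0 ^ 2 * v 0 + 2 * A 0 0 * A 0 1 * v 1 + A 0 1 ^ 2 * v 2,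
      A 0 0 * A 1 0 * v 0 + (A 0 0 * A 1 1 + A 0 1 * A 1 0) * v 1 + A 0 1 * A 1 1 * v 2,
      A 1 0 ^ 2 * v 0 + 2 * A 1 0 * A 1 1 * v 1 + A 1 1 ^ 2 * v 2] := by
  ext i
  fin_cases i <;> simp [sym2, Matrix.mulVec, dotProduct, Fin.sum_univ_succ] <;> ring

theorem conicQ_sym2 (A : Matrix (Fin 2) (Fin 2) F) (v : V3 F) :
    conicQ (sym2 A *ᵥ v) = A.det ^ 2 * conicQ v := by
  rw [sym2_mulVec]
  simp [conicQ, det_fin_two]
  ring

theorem conicQ_smul (c : F) (v : V3 F) : conicQ (c • v) = c ^ 2 * conicQ v := by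
  simp [conicQ]
  ring

/-- the singular vectors of the conic -/
theorem exists_param {v : V3 F} (hv : v ≠ 0) (h : conicQ v = 0) :
    ∃ l s t : F, l ≠ 0 ∧ v = l • ![s ^ 2, s * t, t ^ 2] := by
  unfold conicQ at h
  by_cases h0 : v 0 = 0
  · have h1 : v 1 = 0 := by
      rw [h0, zero_mul, sub_zero] at h
      exact pow_eq_zero_iff (by norm_num) |>.1 h
    refine ⟨v 2, 0, 1, fun h2 => hv ?_, ?_⟩
    · ext i
      fin_cases i <;> simp [h0, h1, h2]
    · ext i
      fin_cases i <;> simp [h0, h1]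
  · refine ⟨v 0, 1, v 1 / v 0, h0, ?_⟩
    ext i
    fin_cases i
    · simp
    · simp
      field_simp
    · simp
      field_simp
      linear_combination -h

end Conic

open Conic

theorem adj2_mul (A B : Matrix (Fin 2) (Fin 2) F) : adj2 (A * B) = adj2 A * adj2 B := by
  rw [adj2_eq, adj2_eq, adj2_eq, sym2_mul, det_mul, mul_inv, Matrix.smul_mul, Matrix.mul_smul,
    smul_smul]

theorem adj2_one : adj2 (1 : Matrix (Fin 2) (Fin 2) F) = 1 := by
  ext i j
  fin_cases i <;> fin_cases j <;> simp [adj2]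

theorem adj2_smul {c : F} (hc : c ≠ 0) (A : Matrix (Fin 2) (Fin 2) F) : adj2 (c • A) = adj2 A := by
  have : sym2 (c • A) = c ^ 2 • sym2 A := by
    ext i j
    fin_cases i <;> fin_cases j <;> simp [sym2] <;> ring
  rw [adj2_eq, adj2_eq, this, det_smul, Fintype.card_fin, smul_smul, mul_inv, mul_right_comm,
    inv_mul_cancel₀ (pow_ne_zero _ hc), one_mul]

theorem det_adj2 {A : Matrix (Fin 2) (Fin 2) F} (h : A.det ≠ 0) : (adj2 A).det = 1 := by
  rw [adj2_eq, det_smul, det_sym2, Fintype.card_fin, ← mul_pow, inv_mul_cancel₀ h, one_pow]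

theorem trace_adj2 {A : Matrix (Fin 2) (Fin 2) F} (h : A.det ≠ 0) :
    (adj2 A).trace = A.trace ^ 2 / A.det - 1 := by
  rw [adj2_eq, trace_smul, smul_eq_mul]
  have e : (sym2 A).trace = A.trace ^ 2 - A.det := by
    simp [sym2, trace_fin_three, trace_fin_two, det_fin_two]
    ring
  rw [e]
  field_simp

theorem conicQ_adj2 {A : Matrix (Fin 2) (Fin 2) F} (h : A.det ≠ 0) (v : V3 F) :
    conicQ (adj2 A *ᵥ v) = conicQ v := by
  rw [adj2_eq, Matrix.smul_mulVec, conicQ_smul, conicQ_sym2, ← mul_assoc, ← mul_pow,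
    inv_mul_cancel₀ h, one_pow, one_mul]

theorem gl2_det_ne (A : GL (Fin 2) F) : (A : Matrix (Fin 2) (Fin 2) F).det ≠ 0 :=
  (Matrix.isUnits_det_units A).ne_zero

/-- `adj2` as a homomorphism `GL₂(F) → GL₃(F)` -/
noncomputable def adjH : GL (Fin 2) F →* GL (Fin 3) F :=
  MonoidHom.mk' (fun A => GeneralLinearGroup.mkOfDetNeZero (adj2 (A : Matrix (Fin 2) (Fin 2) F))
    (by rw [det_adj2 (gl2_det_ne A)]; exact one_ne_zero))
    fun A B => Units.ext (adj2_mul _ _)

theorem coe_adjH (A : GL (Fin 2) F) : (adjH A : M3 F) = adj2 (A : Matrix (Fin 2) (Fin 2) F) := rfl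

/-- only scalars act as scalars -/
theorem scalar_of_adj2 {A : Matrix (Fin 2) (Fin 2) F} (hA : A.det ≠ 0) {c : F}
    (h : adj2 A = c • (1 : M3 F)) : ∃ d : F, A = d • (1 : Matrix (Fin 2) (Fin 2) F) := by
  have e : ∀ i j, sym2 A i j = A.det * (c * (1 : M3 F) i j) := fun i j => by
    have := congrFun (congrFun h i) j
    rw [adj2_eq, Matrix.smul_apply, Matrix.smul_apply, smul_eq_mul, smul_eq_mul] at this
    rw [← this]
    field_simp
  have e02 := e 0 2
  have e20 := e 2 0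
  have e00 := e 0 0
  have e11 := e 1 1
  simp [sym2] at e02 e20 e00 e11
  have h0 : A 0 0 ≠ 0 := fun h0 => hA (by rw [det_fin_two, h0, e02]; ring)
  have h1 : A 1 1 = A 0 0 := by
    apply mul_left_cancel₀ h0
    rw [e02] at e11
    linear_combination e11 - e00
  refine ⟨A 0 0, ?_⟩
  ext i j
  fin_cases i <;> fin_cases j <;> simp [e02, e20, h1]

/-- every similarity of the conic comes from `GL₂` -/
theorem exists_adj2_of_sim {y : M3 F} {μ : F} (hμ : μ ≠ 0)
    (hy : ∀ v, conicQ (y *ᵥ v) = μ * conicQ v) :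
    ∃ (A : GL (Fin 2) F) (z : F), y = z • adj2 (A : Matrix (Fin 2) (Fin 2) F) := by
  have col : ∀ v : V3 F, y *ᵥ v = ![y 0 0 * v 0 + y 0 1 * v 1 + y 0 2 * v 2,
      y 1 0 * v 0 + y 1 1 * v 1 + y 1 2 * v 2, y 2 0 * v 0 + y 2 1 * v 1 + y 2 2 * v 2] := by
    intro v
    ext i
    fin_cases i <;> simp [Matrix.mulVec, dotProduct, Fin.sum_univ_succ] <;> ring
  have q0 := hy ![1, 0, 0]
  have q1 := hy ![0, 1, 0]
  have q2 := hy ![0, 0, 1]
  have q01 := hy ![1, 1, 0]
  have q02 := hy ![1, 0, 1]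
  have q12 := hy ![0, 1, 1]
  rw [col] at q0 q1 q2 q01 q02 q12
  simp [conicQ] at q0 q1 q2 q01 q02 q12
  have p02 : 2 * y 1 0 * y 1 2 - y 0 0 * y 2 2 - y 0 2 * y 2 0 = -μ := by
    linear_combination q02 - q0 - q2
  have p01 : 2 * y 1 0 * y 1 1 - y 0 0 * y 2 1 - y 0 1 * y 2 0 = 0 := by
    linear_combination q01 - q0 - q1
  have p12 : 2 * y 1 1 * y 1 2 - y 0 1 * y 2 2 - y 0 2 * y 2 1 = 0 := by
    linear_combination q12 - q1 - q2
  have hc0 : (![y 0 0, y 1 0, y 2 0] : V3 F) ≠ 0 := by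
    intro h
    have h0 : y 0 0 = 0 := congrFun h 0
    have h1 : y 1 0 = 0 := congrFun h 1
    have h2 : y 2 0 = 0 := congrFun h 2
    apply hμ
    rw [h0, h1, h2] at p02
    linear_combination p02
  have hc2 : (![y 0 2, y 1 2, y 2 2] : V3 F) ≠ 0 := by
    intro h
    have h0 : y 0 2 = 0 := congrFun h 0
    have h1 : y 1 2 = 0 := congrFun h 1
    have h2 : y 2 2 = 0 := congrFun h 2
    apply hμ
    rw [h0, h1, h2] at p02
    linear_combination p02
  obtain ⟨l, s, t, hl, e0⟩ := exists_param hc0 (by simpa [conicQ] using q0)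
  obtain ⟨m, s', t', hm, e2⟩ := exists_param hc2 (by simpa [conicQ] using q2)
  have a00 : y 0 0 = l * s ^ 2 := congrFun e0 0
  have a10 : y 1 0 = l * (s * t) := congrFun e0 1
  have a20 : y 2 0 = l * t ^ 2 := congrFun e0 2
  have a02 : y 0 2 = m * s' ^ 2 := congrFun e2 0
  have a12 : y 1 2 = m * (s' * t') := congrFun e2 1
  have a22 : y 2 2 = m * t' ^ 2 := congrFun e2 2
  rw [a00, a10, a20] at p01
  rw [a02, a12, a22] at p12
  rw [a00, a10, a20, a02, a12, a22] at p02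
  set D := s * t' - s' * t with hD
  have hμD : μ = l * m * D ^ 2 := by rw [hD]; linear_combination p02
  have hD0 : D ≠ 0 := fun h => hμ (by rw [hμD, h]; ring)
  have r1 : 2 * s * t * y 1 1 - s ^ 2 * y 2 1 - t ^ 2 * y 0 1 = 0 :=
    mul_left_cancel₀ hl (by linear_combination p01)
  have r2 : 2 * s' * t' * y 1 1 - s' ^ 2 * y 2 1 - t' ^ 2 * y 0 1 = 0 :=
    mul_left_cancel₀ hm (by linear_combination p12)
  -- the middle column is `b (2 s s', s t' + s' t, 2 t t')`
  set b := (-(t * t') * y 0 1 + (s * t' + s' * t) * y 1 1 - s * s' * y 2 1) / D ^ 2 with hb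
  have hbD : b * D ^ 2 = -(t * t') * y 0 1 + (s * t' + s' * t) * y 1 1 - s * s' * y 2 1 := by
    rw [hb]; field_simp
  have hD2 : D ^ 2 ≠ 0 := pow_ne_zero _ hD0
  have a01 : y 0 1 = b * (2 * s * s') := mul_right_cancel₀ hD2 (by
    rw [mul_right_comm, hbD, hD]; linear_combination (-s' ^ 2) * r1 - s ^ 2 * r2)
  have a11 : y 1 1 = b * (s * t' + s' * t) := mul_right_cancel₀ hD2 (by
    rw [mul_right_comm, hbD, hD]; linear_combination (-(s' * t')) * r1 - s * t * r2)
  have a21 : y 2 1 = b * (2 * t * t') := mul_right_cancel₀ hD2 (by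
    rw [mul_right_comm, hbD, hD]; linear_combination (-t' ^ 2) * r1 - t ^ 2 * r2)
  have hb2 : b ^ 2 = l * m := by
    rw [a01, a11, a21, hμD] at q1
    apply mul_right_cancel₀ hD2
    rw [← q1, hD]
    ring
  have hb0 : b ≠ 0 := fun h => mul_ne_zero hl hm (by rw [← hb2, h]; ring)
  have hdet : (!![l * s, b * s'; l * t, b * t'] : Matrix (Fin 2) (Fin 2) F).det = l * b * D := by
    rw [det_fin_two_of, hD]; ring
  have hdet0 : (!![l * s, b * s'; l * t, b * t'] : Matrix (Fin 2) (Fin 2) F).det ≠ 0 := by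
    rw [hdet]; exact mul_ne_zero (mul_ne_zero hl hb0) hD0
  refine ⟨GeneralLinearGroup.mkOfDetNeZero _ hdet0, b * D, ?_⟩
  have hc : ((GeneralLinearGroup.mkOfDetNeZero _ hdet0 : GL (Fin 2) F) : Matrix (Fin 2) (Fin 2) F) =
      !![l * s, b * s'; l * t, b * t'] := rfl
  rw [hc, adj2_eq, hdet, smul_smul]
  have hz : b * D * (l * b * D)⁻¹ = l⁻¹ := by field_simp
  rw [hz, eq_inv_smul_iff₀ hl]
  ext i j
  fin_cases i <;> fin_cases j <;> simp [sym2, a00, a10, a20, a01, a11, a21, a02, a12, a22]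
  all_goals first
    | ring1
    | linear_combination (-s' ^ 2) * hb2
    | linear_combination (-(s' * t')) * hb2
    | linear_combination (-t' ^ 2) * hb2

/-- a non-degenerate ternary quadratic form over a finite field is similar to the conic -/
theorem exists_conic_basis [Finite F] {Q : V3 F → F} (hQ : IsNondegenerateQuadraticForm Q) :
    ∃ (B : GL (Fin 3) F) (c : F), c ≠ 0 ∧ ∀ v, Q ((B : M3 F) *ᵥ v) = c * conicQ v := by
  let q : QuadraticForm F (V3 F) :=
    QuadraticMap.ofPolar Q (fun a x => by rw [hQ.smul, smul_eq_mul, pow_two])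
      hQ.polar_bilinear.add_left (fun a x y => hQ.polar_bilinear.smul_left a x y)
  have hq : ⇑q = Q := rfl
  obtain ⟨u, hu0, hu⟩ := OrthE.exists_singular q (by simp)
  have hnd := hQ.nondegenerate
  rw [← hq] at hnd ⊢
  clear_value q
  open QuadraticMap in
  obtain ⟨w0, hw0⟩ := (hnd u hu0).2
  have huu : polar q u u = 0 := by rw [QuadraticMap.polar_self, hu, smul_zero]
  obtain ⟨w, huw, hw⟩ : ∃ w, polar q u w = 1 ∧ q w = 0 := by
    obtain ⟨w1, h1⟩ : ∃ w1, polar q u w1 = 1 := ⟨(polar q u w0)⁻¹ • w0, by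
      rw [polar_smul_right, smul_eq_mul, inv_mul_cancel₀ hw0]⟩
    refine ⟨w1 + (-q w1) • u, ?_, ?_⟩
    · rw [polar_add_right, polar_smul_right, h1, huu, smul_zero, add_zero]
    · rw [QuadraticMap.map_add q, QuadraticMap.map_smul, hu, polar_smul_right, polar_comm, h1]
      simp
  have hww : polar q w w = 0 := by rw [QuadraticMap.polar_self, hw, smul_zero]
  have hwu : polar q w u = 1 := by rw [polar_comm, huw]
  have hcr : u ⨯₃ w ≠ 0 := fun h => by
    obtain ⟨c, rfl⟩ := parallel_of_cross hu0 h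
    rw [polar_smul_right, huu, smul_zero] at huw
    exact zero_ne_one huw
  obtain ⟨t, ht⟩ := exists_third hcr
  let e := t + (-polar q t w) • u + (-polar q t u) • w
  have heu : polar q e u = 0 := by
    simp only [e, polar_add_left, polar_smul_left, huu, hwu, smul_eq_mul]; ring
  have hew : polar q e w = 0 := by
    simp only [e, polar_add_left, polar_smul_left, huw, hww, smul_eq_mul]; ring
  have he : u ⬝ᵥ w ⨯₃ e ≠ 0 := by
    have : u ⬝ᵥ w ⨯₃ e = u ⬝ᵥ w ⨯₃ t := by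
      simp only [e, map_add, map_smul, dotProduct_add, dotProduct_smul, cross_self,
        dotProduct_zero, smul_zero, add_zero]
      rw [dot_cross_self]
      simp
    rwa [this]
  have he0 : e ≠ 0 := fun h => he (by rw [h]; simp)
  have hc : q e ≠ 0 := fun h => by
    obtain ⟨x, hx⟩ := (hnd e he0).2
    obtain ⟨a, b, c, rfl⟩ := exists_coords he x
    apply hx
    simp only [polar_add_right, polar_smul_right, heu, hew, QuadraticMap.polar_self, h, smul_zero, add_zero]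
  have hdet : u ⬝ᵥ e ⨯₃ ((-q e) • w) ≠ 0 := by
    rw [map_smul, dotProduct_smul, ← cross_anticomm, dotProduct_neg]
    simpa using ⟨hc, he⟩
  refine ⟨glCols u e ((-q e) • w) hdet, q e, hc, fun v => ?_⟩
  rw [coe_glCols, cols_mulVec, QuadraticMap.map_add q, QuadraticMap.map_add q]
  simp only [polar_add_left, polar_smul_left, polar_smul_right, QuadraticMap.map_smul, hu, hw,
    huw, hew, polar_comm q u e, heu, smul_eq_mul, conicQ]
  ring

/-- the similarities of determinant one are the elements of `SO₃` times cube roots of unity -/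
theorem mem_quadSim_iff' {Q : V3 F → F} {B : GL (Fin 3) F} {c : F} (hc : c ≠ 0)
    (hB : ∀ v, Q ((B : M3 F) *ᵥ v) = c * conicQ v) {x : GL (Fin 3) F} :
    x ∈ quadSimilarityGroup Q ↔
      ∃ (A : GL (Fin 2) F) (z : F), (x : M3 F) = z • cj B (adj2 (A : Matrix (Fin 2) (Fin 2) F)) := by
  constructor
  · rintro ⟨μ, hμ⟩
    have hy : ∀ v, conicQ (cj B⁻¹ (x : M3 F) *ᵥ v) = μ * conicQ v := fun v => by
      apply mul_left_cancel₀ hc
      rw [← hB, ← cj_mulVec, cj_cj_inv, hμ, hB, mul_left_comm]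
    obtain ⟨A, z, e⟩ := exists_adj2_of_sim μ.ne_zero hy
    exact ⟨A, z, by rw [← map_smul, ← e, cj_cj_inv]⟩
  · rintro ⟨A, z, e⟩
    have hz : z ≠ 0 := fun h => (Matrix.isUnits_det_units x).ne_zero (by rw [e, h]; simp)
    refine ⟨Units.mk0 (z ^ 2) (pow_ne_zero _ hz), fun v => ?_⟩
    rw [← mulVec_inv_mulVec B v, e, ← map_smul, cj_mulVec, hB, hB, Matrix.smul_mulVec, conicQ_smul,
      conicQ_adj2 (gl2_det_ne A), Units.val_mk0, mul_left_comm]

/-- the similarities of determinant one are the elements of `SO₃` times cube roots of unity -/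
theorem mem_quadSim_iff (_h2 : (2 : F) ≠ 0) {Q : V3 F → F} {B : GL (Fin 3) F} {c : F} (hc : c ≠ 0)
    (hB : ∀ v, Q ((B : M3 F) *ᵥ v) = c * conicQ v) {x : GL (Fin 3) F} :
    x ∈ quadSimilarityGroup Q ⊓ specialLinear (Fin 3) F ↔
      ∃ (A : GL (Fin 2) F) (z : F), z ^ 3 = 1 ∧
        (x : M3 F) = z • cj B (adj2 (A : Matrix (Fin 2) (Fin 2) F)) := by
  rw [Subgroup.mem_inf, mem_quadSim_iff' hc hB, mem_specialLinear]
  have key : ∀ (A : GL (Fin 2) F) (z : F),
      (z • cj B (adj2 (A : Matrix (Fin 2) (Fin 2) F))).det = z ^ 3 := fun A z => by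
    rw [det_smul, det_cj, det_adj2 (gl2_det_ne A), Fintype.card_fin, mul_one]
  constructor
  · rintro ⟨⟨A, z, e⟩, hd⟩
    exact ⟨A, z, by rw [← key A z, ← e, hd], e⟩
  · rintro ⟨A, z, hz, e⟩
    exact ⟨⟨A, z, e⟩, by rw [e, key, hz]⟩

/-- `PGL₂(F)` as the stabiliser of a conic in `PGL₃(F)` -/
noncomputable def conicπ (B : GL (Fin 3) F) : PGL(2, F) →* PGL(3, F) :=
  ProjGenLinGroup.lift (ProjGenLinGroup.mk.comp ((MulAut.conj B).toMonoidHom.comp adjH)) (by
    ext u
    have : adjH (GeneralLinearGroup.scalar (Fin 2) u) = 1 := Units.ext (by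
      rw [coe_adjH, GeneralLinearGroup.coe_scalar, Matrix.scalar_apply,
        ← Matrix.smul_one_eq_diagonal, adj2_smul u.ne_zero, adj2_one, Units.val_one])
    simp [this])

theorem conicπ_mk (B : GL (Fin 3) F) (A : GL (Fin 2) F) :
    conicπ B (ProjGenLinGroup.mk A) = ProjGenLinGroup.mk (B * adjH A * B⁻¹) := rfl

theorem conicπ_injective (B : GL (Fin 3) F) : Function.Injective (conicπ B) := by
  rw [injective_iff_map_eq_one]
  intro x hx
  obtain ⟨A, rfl⟩ := ProjGenLinGroup.mk_surjective x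
  rw [conicπ_mk, mk_eq_one_iff] at hx
  have h1 : adjH A ∈ scalars (Fin 3) F := conj_mem_scalars.1 hx
  obtain ⟨c, hc⟩ := (mem_scalars_iff _).1 h1
  obtain ⟨d, hd⟩ := scalar_of_adj2 (gl2_det_ne A) hc
  have hd0 : d ≠ 0 := fun h => gl2_det_ne A (by rw [hd, h]; simp)
  have : A = GeneralLinearGroup.scalar (Fin 2) (Units.mk0 d hd0) := Units.ext (by
    rw [hd, GeneralLinearGroup.coe_scalar, Matrix.scalar_apply, ← Matrix.smul_one_eq_diagonal,
      Units.val_mk0])
  rw [this, ProjGenLinGroup.mk_scalar]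

theorem mk_mem_range_conicπ {Q : V3 F → F} {B : GL (Fin 3) F} {c : F} (hc : c ≠ 0)
    (hB : ∀ v, Q ((B : M3 F) *ᵥ v) = c * conicQ v) {x : GL (Fin 3) F} :
    ProjGenLinGroup.mk x ∈ (conicπ B).range ↔ x ∈ quadSimilarityGroup Q := by
  rw [mem_quadSim_iff' hc hB]
  constructor
  · rintro ⟨y, hy⟩
    obtain ⟨A, rfl⟩ := ProjGenLinGroup.mk_surjective y
    rw [conicπ_mk, mk_eq_mk_iff_smul] at hy
    obtain ⟨z, -, e⟩ := hy
    exact ⟨A, z, by rw [e, ← cj_coe, coe_adjH]⟩
  · rintro ⟨A, z, e⟩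
    have hz : z ≠ 0 := fun h => (Matrix.isUnits_det_units x).ne_zero (by rw [e, h]; simp)
    refine ⟨ProjGenLinGroup.mk A, ?_⟩
    rw [conicπ_mk, mk_eq_mk_iff_smul]
    exact ⟨z, hz, by rw [e, ← cj_coe, coe_adjH]⟩

/-- a group acting faithfully on the plane by similarities of a conic embeds in `PGL₂(F)` -/
theorem exists_hom_pgl2' [Finite F] {Q : V3 F → F} (hQ : IsNondegenerateQuadraticForm Q)
    {G : Type*} [Group G] {π : G →* PGL(3, F)} (hπ : Function.Injective π)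
    (h : ∀ g, ∃ x ∈ quadSimilarityGroup Q, π g = ProjGenLinGroup.mk x) :
    ∃ f : G →* PGL(2, F), Function.Injective f := by
  obtain ⟨B, c, hc, hB⟩ := exists_conic_basis hQ
  have hm : ∀ g, π g ∈ (conicπ B).range := fun g => by
    obtain ⟨x, hx, e⟩ := h g
    rw [e]
    exact (mk_mem_range_conicπ hc hB).2 hx
  refine ⟨(MonoidHom.ofInjective (conicπ_injective B)).symm.toMonoidHom.comp
    (π.codRestrict _ hm), ?_⟩
  exact (MonoidHom.ofInjective (conicπ_injective B)).symm.injective.comp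
    fun a b e => hπ (congrArg Subtype.val e)

/-- a group of similarities of determinant one embeds, modulo scalars, in `PGL₂(F)` -/
theorem exists_hom_pgl2 [Finite F] {Q : V3 F → F} (hQ : IsNondegenerateQuadraticForm Q)
    {H : Subgroup (GL (Fin 3) F)} (hH : H ≤ quadSimilarityGroup Q ⊓ specialLinear (Fin 3) F) :
    ∃ f : Bar H →* PGL(2, F), Function.Injective f :=
  exists_hom_pgl2' hQ (barπ_injective H) fun g => by
    obtain ⟨x, rfl⟩ := QuotientGroup.mk_surjective g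
    exact ⟨x, (hH x.2).1, barπ_mk H x⟩

end CfsgLib.Mit
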