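import Mathlib
import Cfsg.Agent.Lib.Mit.BloomA
import Cfsg.Agent.Lib.Mit.Conic
import Cfsg.Agent.Lib.Dickson.MinSimple
import Cfsg.Agent.Lib.Unitary.SU2

/-! Bloom's theorem, part B: the linear, unitary and orthogonal cases.  See `plans/MITCHELL.md`. -/

set_option autoImplicit false

namespace CfsgLib.Mit.Bloom

open Matrix Cfsg Cfsg.Geo CfsgLib.Asch
open scoped MatrixGroups commutatorElement

variable {G : Type*} [Group G] {F : Type*} [Field F] {π : G →* PGL(3, F)}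
  {P : Subgroup (GL (Fin 3) F)}

/-- `G ≤ PSL₃(F)` with socle `P` modulo scalars -/
structure Hyp (π : G →* PGL(3, F)) (P : Subgroup (GL (Fin 3) F)) : Prop where
  inj : Function.Injective π
  sl : ∀ g, ∃ x : GL (Fin 3) F, (x : M3 F).det = 1 ∧ π g = ProjGenLinGroup.mk x
  qs : QS P
  le : P.map ProjGenLinGroup.mk ≤ π.range
  nrm : ∀ g x, π g = ProjGenLinGroup.mk x → ∀ y ∈ P, x * y * x⁻¹ ∈ P

theorem Hyp.equiv (h : Hyp π P) : Nonempty (im π P ≃* Bar P) := nonempty_im_equiv h.inj h.le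

theorem Hyp.nrm' (h : Hyp π P) : Nrm (π.range.comap ProjGenLinGroup.mk) P :=
  fun x ⟨g, hg⟩ => h.nrm g x hg

theorem Hyp.equiv_of_top (h : Hyp π P) (ht : im π P = ⊤) : Nonempty (G ≃* Bar P) :=
  h.equiv.map fun e => (Subgroup.topEquiv.symm.trans (MulEquiv.subgroupCongr ht.symm)).trans e

theorem Hyp.equiv_of_norm (h : Hyp π P)
    (hn : ∀ x : GL (Fin 3) F, (∀ y ∈ P, x * y * x⁻¹ ∈ P) → x ∈ P ⊔ scalars (Fin 3) F) :
    Nonempty (G ≃* Bar P) :=
  h.equiv_of_top (eq_top_iff.2 fun g _ => by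
    obtain ⟨x, -, e⟩ := h.sl g
    exact mem_im_of_mem_sup e (hn x (h.nrm g x e)))

theorem Hyp.not_solvable (h : Hyp π P) : ¬ Group.IsSolvable G := fun hs => by
  obtain ⟨e⟩ := h.equiv
  have h1 : Group.IsSolvable (Bar P) := Dickson.isSolvable_of_equiv ⟨e.symm⟩ inferInstance
  have := h.qs.simple
  exact h.qs.nonab ⟨⟨IsSimpleGroup.comm_iff_isSolvable.2 h1⟩⟩

theorem mem_subfield_of_pow [Finite F] (E : Subfield F) {x : F} (hx : x ^ Nat.card E = x) :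
    x ∈ E := by
  classical
  have := Fintype.ofFinite E
  have h1 : ∀ y ∈ E, y ^ Nat.card E = y := fun y hy => by
    rw [Nat.card_eq_fintype_card]
    exact congrArg Subtype.val (FiniteField.pow_card (⟨y, hy⟩ : E))
  have hlt : 1 < Nat.card E := Finite.one_lt_card
  open Polynomial in
  have h2 : ∀ y : F, y ^ Nat.card E = y → y ∈ (X ^ Nat.card E - X : F[X]).rootSet F := fun y hy => by
    rw [mem_rootSet_of_ne (FiniteField.X_pow_card_sub_X_ne_zero F hlt)]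
    rw [map_sub, map_pow, aeval_X, hy, sub_self]
  have h3 : (E : Set F) = (X ^ Nat.card E - X : F[X]).rootSet F := by
    refine Set.eq_of_subset_of_ncard_le (fun y hy => h2 y (h1 y hy)) ((ncard_rootSet_le _ _).trans ?_)
    rw [FiniteField.X_pow_card_sub_X_natDegree_eq F hlt]
    rfl
  rw [← SetLike.mem_coe, h3]
  exact h2 x hx

theorem glEmb_sc (F₀ : Subfield F) (B : GL (Fin 3) F) (c : F₀ˣ) :
    glEmb F₀ B (sc (Fin 3) c) = sc (Fin 3) (Units.map (F₀.subtype : F₀ →* F) c) := by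
  apply Units.ext
  rw [coe_glEmb, coe_sc, coe_sc]
  have : ((c : F₀) • (1 : M3 F₀)).map F₀.subtype = ((c : F₀) : F) • (1 : M3 F) := by
    ext i j
    by_cases hij : i = j <;> simp [Matrix.one_apply, hij]
  rw [this, map_smul, map_one]
  rfl

theorem mk_sc_mul (c : Fˣ) (x : GL (Fin 3) F) :
    ProjGenLinGroup.mk (sc (Fin 3) c * x) = ProjGenLinGroup.mk x := by
  rw [map_mul, mk_eq_one_iff.2 (sc_mem c), one_mul]

/-- the normaliser of a group defined over a subfield is defined over the subfield -/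
theorem Hyp.exists_rat (h : Hyp π P) {F₀ : Subfield F} {B : GL (Fin 3) F}
    {Y : Subgroup (GL (Fin 3) F₀)} (hP : P = Y.map (glEmb F₀ B)) :
    ∃ H : Subgroup (GL (Fin 3) F₀), Nrm H Y ∧
      ∀ g, ∃ y ∈ H, π g = ProjGenLinGroup.mk (glEmb F₀ B y) := by
  refine ⟨(π.range.comap ProjGenLinGroup.mk).comap (glEmb F₀ B), fun y hy u hu => ?_, fun g => ?_⟩
  · have h1 := h.nrm' _ hy (glEmb F₀ B u) (hP ▸ ⟨u, hu, rfl⟩)
    rw [← map_inv, ← map_mul, ← map_mul, hP] at h1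
    obtain ⟨v, hv, e⟩ := h1
    exact glEmb_injective F₀ B e ▸ hv
  · obtain ⟨x, -, e⟩ := h.sl g
    have h1 := le_subfieldSubgroup (F₀ := F₀) (env_eq_top_iff.1 h.qs.env_top)
      h.nrm'.stab_matrixSet (B := B⁻¹) (by
        intro s hs
        obtain ⟨z, hz, rfl⟩ := mem_matrixSet.1 hs
        rw [hP] at hz
        obtain ⟨u, -, rfl⟩ := hz
        exact rat_glEmb F₀ B u) (x := x) ⟨g, e⟩
    obtain ⟨c, hc⟩ := mem_subfieldSubgroup.1 h1
    rw [inv_inv, ← map_smul] at hc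
    have e2 : (c : F) • (x : M3 F) = ((sc (Fin 3) c * x : GL (Fin 3) F) : M3 F) := by
      simp [coe_sc]
    rw [e2] at hc
    obtain ⟨y, hy, -⟩ := exists_glEmb_eq hc
    have e3 : π g = ProjGenLinGroup.mk (glEmb F₀ B y) := by rw [hy, mk_sc_mul, e]
    exact ⟨y, ⟨g, e3⟩, e3⟩

theorem Hyp.idx [Finite G] [Finite F] (h : Hyp π P) {F₀ : Subfield F} {B : GL (Fin 3) F}
    {Y : Subgroup (GL (Fin 3) F₀)} (hP : P = (Y ⊓ specialLinear (Fin 3) F₀).map (glEmb F₀ B))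
    {e k : ℕ} (hQ : Nat.card F₀ = e * k + 1) (h1 : ∀ y ∈ Y, (y : M3 F₀).det ^ e = 1)
    (h2 : ∀ c : F₀ˣ, c ^ e = 1 → sc (Fin 3) c ∈ Y)
    (tot : ∀ g, ∃ y ∈ Y, π g = ProjGenLinGroup.mk (glEmb F₀ B y)) :
    im π P = ⊤ ∨ ((im π P).index = 3 ∧ 3 ∣ e ∧ ∃ c : Fˣ, c ^ (3 * e) = 1 ∧ c ^ e ≠ 1) := by
  let M : Subgroup (G × Fˣ) :=
    { carrier := {z | ∃ y ∈ Y, π z.1 = ProjGenLinGroup.mk (glEmb F₀ B y) ∧
        GeneralLinearGroup.det (glEmb F₀ B y) = z.2 ^ 3}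
      mul_mem' := by
        rintro ⟨g, c⟩ ⟨g', c'⟩ ⟨y, hy, e1, e2⟩ ⟨y', hy', e1', e2'⟩
        refine ⟨y * y', Y.mul_mem hy hy', ?_, ?_⟩
        · simp only [Prod.mk_mul_mk, map_mul] at e1 e1' ⊢
          rw [e1, e1']
        · simp only [Prod.mk_mul_mk, map_mul, mul_pow] at e2 e2' ⊢
          rw [e2, e2']
      one_mem' := ⟨1, Y.one_mem, by simp, by simp⟩
      inv_mem' := by
        rintro ⟨g, c⟩ ⟨y, hy, e1, e2⟩
        refine ⟨y⁻¹, Y.inv_mem hy, ?_, ?_⟩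
        · simp only [Prod.inv_mk, map_inv] at e1 ⊢
          rw [e1]
        · simp only [Prod.inv_mk, map_inv, inv_pow] at e2 ⊢
          rw [e2] }
  have hdet : ∀ {y : GL (Fin 3) F₀} {c : Fˣ}, GeneralLinearGroup.det (glEmb F₀ B y) = c ^ 3 ↔
      (((y : M3 F₀).det : F₀) : F) = (c : F) ^ 3 := fun {y c} => by
    rw [Units.ext_iff, GeneralLinearGroup.val_det_apply, det_glEmb, Units.val_pow_eq_pow_val]
  refine idx3 M (fun g => ?_) ?_ ?_ fun w hw => ⟨1, Y.one_mem, by simp, by simp [hw]⟩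
  · obtain ⟨y, hy, e1⟩ := tot g
    obtain ⟨x, hx, e2⟩ := h.sl g
    obtain ⟨c, hc, e3⟩ := mk_eq_mk_iff_smul.1 (e2.symm.trans e1)
    refine ⟨Units.mk0 c hc, y, hy, e1, hdet.2 ?_⟩
    rw [← det_glEmb F₀ B, e3, det_smul, hx, Fintype.card_fin, mul_one, Units.val_mk0]
  · rintro g c ⟨y, hy, -, e2⟩
    apply Units.ext
    rw [Units.val_pow_eq_pow_val, pow_mul, ← hdet.1 e2, ← SubmonoidClass.coe_pow, h1 y hy]
    rfl
  · rintro g c ⟨y, hy, e1, e2⟩ hc
    have hc' : (c : F) ^ e = 1 := by rw [← Units.val_pow_eq_pow_val, hc, Units.val_one]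
    have hm : (c : F) ∈ F₀ := mem_subfield_of_pow F₀ (by
      rw [hQ, pow_succ, pow_mul, hc', one_pow, one_mul])
    let d : F₀ˣ := Units.mk0 ⟨c, hm⟩ fun h0 => c.ne_zero (congrArg Subtype.val h0)
    have hd : d ^ e = 1 := Units.ext (Subtype.ext hc')
    refine ⟨glEmb F₀ B (sc (Fin 3) d⁻¹ * y), hP ▸ ⟨_, ⟨Y.mul_mem (h2 _ (by rw [inv_pow, hd, inv_one]))
      hy, mem_specialLinear.2 ?_⟩, rfl⟩, by rw [map_mul, glEmb_sc, mk_sc_mul, e1]⟩
    have e3 : (y : M3 F₀).det = (d : F₀) ^ 3 := Subtype.ext (hdet.1 e2)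
    rw [Units.val_mul, coe_sc, Matrix.smul_mul, Matrix.one_mul, det_smul, Fintype.card_fin, e3,
      ← mul_pow, Units.inv_mul, one_pow]

theorem bar_equiv_of_range (hP : QS P) {A : Type*} [Group A] {f : A →* GL (Fin 3) F}
    (hf : Function.Injective f) (e : P = f.range) : Nonempty (Bar P ≃* A ⧸ Subgroup.center A) :=
  ⟨(QuotientGroup.quotientMulEquivOfEq (center_eq_of_env hP.env_top).symm).trans
    (Classical.centerQuotEquiv ((MulEquiv.subgroupCongr e).trans (MonoidHom.ofInjective hf).symm))⟩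

theorem range_toGL (K : Type*) [Field K] :
    (SpecialLinearGroup.toGL : SL(3, K) →* GL (Fin 3) K).range = specialLinear (Fin 3) K := by
  ext x
  rw [mem_specialLinear]
  constructor
  · rintro ⟨y, rfl⟩
    exact y.2
  · intro h
    exact ⟨⟨x, h⟩, Units.ext rfl⟩

/-- the order of a subfield -/
theorem card_subfield [Fintype F] {p α : ℕ} (hp : p.Prime) (hF : Fintype.card F = p ^ α)
    (F₀ : Subfield F) : ∃ β m, Nat.card F₀ = p ^ β ∧ α = β * m ∧ Nat.card F = Nat.card F₀ ^ m := by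
  obtain ⟨m, hm, e⟩ := Dickson.exists_card_eq_pow F₀.subtype
  have h1 : Nat.card F₀ ∣ p ^ α := by
    rw [← hF, ← Nat.card_eq_fintype_card, e]
    exact dvd_pow_self _ (by omega)
  obtain ⟨β, -, hβ⟩ := (Nat.dvd_prime_pow hp).1 h1
  refine ⟨β, m, hβ, ?_, e⟩
  rw [Nat.card_eq_fintype_card, hF, hβ, ← pow_mul] at e
  exact Nat.pow_right_injective hp.two_le e

theorem Hyp.caseL [Finite G] [Fintype F] (h : Hyp π P) (hL : IsL P) {p α : ℕ} (hp : p.Prime)
    (hF : Fintype.card F = p ^ α) :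
    ∃ (K : Type) (_ : Field K) (_ : Fintype K) (β : ℕ), Fintype.card K = p ^ β ∧
      ((β ∣ α ∧ Nonempty (G ≃* PSL(3, K))) ∨ (3 ∣ p ^ β - 1 ∧ 3 * β ∣ α ∧
        ∃ L : Subgroup G, L.index = 3 ∧ Nonempty (L ≃* PSL(3, K)))) := by
  obtain ⟨F₀, B, hP⟩ := hL
  obtain ⟨β, m, hβ, hα, hm⟩ := card_subfield hp hF F₀
  obtain ⟨K, _, _, hK, ⟨eK⟩⟩ := Dickson.exists_type_field F₀
  obtain ⟨e1⟩ := bar_equiv_of_range h.qs (f := (glEmb F₀ B).comp SpecialLinearGroup.toGL)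
    ((glEmb_injective F₀ B).comp SpecialLinearGroup.toGL_injective)
    (by rw [hP, MonoidHom.range_comp, range_toGL, slSub])
  have e2 : Bar P ≃* PSL(3, K) := e1.trans (Classical.pslMapEquiv eK)
  obtain ⟨H, -, tot⟩ := h.exists_rat hP
  have hQ : Nat.card F₀ = (Nat.card F₀ - 1) * 1 + 1 := by
    have : 0 < Nat.card F₀ := Nat.card_pos
    omega
  refine ⟨K, inferInstance, inferInstance, β, hK.trans hβ, ?_⟩
  rcases h.idx (Y := ⊤) (by rw [top_inf_eq]; exact hP) hQ (fun y _ => by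
      have := Fintype.ofFinite F₀
      rw [Nat.card_eq_fintype_card]
      exact FiniteField.pow_card_sub_one_eq_one _ (Matrix.isUnits_det_units y).ne_zero)
    (fun _ _ => trivial) (fun g => (tot g).imp fun y hy => ⟨trivial, hy.2⟩) with
    ht | ⟨hi, h3, c, hc1, hc2⟩
  · exact Or.inl ⟨⟨m, hα⟩, (h.equiv_of_top ht).map fun e => e.trans e2⟩
  · obtain ⟨j, rfl⟩ := three_dvd_degree hm hQ h3 (by norm_num) hc1 hc2
    exact Or.inr ⟨hβ ▸ h3, ⟨j, by rw [hα]; ring⟩, im π P, hi, h.equiv.map fun e => e.trans e2⟩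

theorem Hyp.caseU [Finite G] [Fintype F] (h : Hyp π P) (hU : IsU P) {p α : ℕ} (hp : p.Prime)
    (hF : Fintype.card F = p ^ α) :
    ∃ (K : Type) (_ : Field K) (_ : Fintype K) (β : ℕ), Fintype.card K = p ^ (2 * β) ∧
      ((2 * β ∣ α ∧ Nonempty (G ≃* PSU 3 K (p ^ β))) ∨ (3 ∣ p ^ β + 1 ∧ 6 * β ∣ α ∧
        ∃ L : Subgroup G, L.index = 3 ∧ Nonempty (L ≃* PSU 3 K (p ^ β)))) := by
  obtain ⟨F₀, B, q, hq, hq3, hP⟩ := hU
  obtain ⟨γ, m, hγ, hα, hm⟩ := card_subfield hp hF F₀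
  obtain ⟨β, -, rfl⟩ := (Nat.dvd_prime_pow hp).1
    (show q ∣ p ^ γ by rw [← hγ, hq]; exact dvd_pow_self _ two_ne_zero)
  obtain rfl : γ = 2 * β := Nat.pow_right_injective hp.two_le (by
    simp only; rw [← hγ, hq, ← pow_mul, mul_comm])
  set q := p ^ β with hqβ
  have := Fintype.ofFinite F₀
  have hq' : Fintype.card F₀ = q ^ 2 := by rw [← Nat.card_eq_fintype_card, hq]
  obtain ⟨K, _, _, hK, ⟨eK⟩⟩ := Dickson.exists_type_field F₀
  obtain ⟨e1⟩ := bar_equiv_of_range h.qs (f := (glEmb F₀ B).comp (suGL 3 F₀ q))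
    ((glEmb_injective F₀ B).comp (suGL_injective 3))
    (by rw [hP, MonoidHom.range_comp, range_suGL, suSub])
  have e2 : Bar P ≃* PSU 3 K q := e1.trans (Unitary.psuMapEquiv eK)
  obtain ⟨H, hH, tot⟩ := h.exists_rat hP
  have hsim : H ≤ similarityGroup (hermForm 3 F₀ q) :=
    le_similarityGroup_sesq (env_SUG hq' le_rfl) hH (isSesq_herm hq' 3).sesq0
      (isSesq_herm hq' 3).nondeg (fixes_of_le_GU inf_le_left)
  have hs := (isSesq_herm hq' 3).sesq0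
  have hsc : ∀ (c : F₀ˣ) (y : GL (Fin 3) F₀) (u v : V3 F₀),
      hermForm 3 F₀ q (((sc (Fin 3) c * y : GL (Fin 3) F₀) : M3 F₀) *ᵥ u)
        (((sc (Fin 3) c * y : GL (Fin 3) F₀) : M3 F₀) *ᵥ v) =
      (c : F₀) ^ (q + 1) * hermForm 3 F₀ q ((y : M3 F₀) *ᵥ u) ((y : M3 F₀) *ᵥ v) := by
    intro c y u v
    rw [Units.val_mul, coe_sc, Matrix.smul_mul, Matrix.one_mul, Matrix.smul_mulVec,
      Matrix.smul_mulVec, hs.smul_left, hs.smul_right, Unitary.conj_apply]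
    ring
  have hQ : Nat.card F₀ = (q + 1) * (q - 1) + 1 := by
    rw [hq, ← Unitary.sq_sub_one_eq q (by omega)]
    have : 0 < q ^ 2 := by positivity
    omega
  refine ⟨K, inferInstance, inferInstance, β, hK.trans hγ, ?_⟩
  rcases h.idx (Y := GU 3 F₀ q) hP hQ (fun y hy => Unitary.det_norm_of_pres hq' hy)
    (fun c hc => by
      rw [← mul_one (sc (Fin 3) c)]
      intro u v
      have hc' : (c : F₀) ^ (q + 1) = 1 := by rw [← Units.val_pow_eq_pow_val, hc, Units.val_one]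
      exact (hsc c 1 u v).trans (by simp [hc']))
    (fun g => by
      obtain ⟨y, hy, e⟩ := tot g
      obtain ⟨μ, hμ⟩ := hsim hy
      have h1 : hermForm 3 F₀ q (Pi.single 0 1) (Pi.single 0 1) = 1 := by
        simp [hermForm, Fin.sum_univ_succ]
      have h2 : (μ : F₀) ^ q = μ := by
        have h3 := hμ (Pi.single 0 1) (Pi.single 0 1)
        rw [h1, mul_one] at h3
        have h4 := (isSesq_herm hq' 3).refl ((y : M3 F₀) *ᵥ Pi.single 0 1)
          ((y : M3 F₀) *ᵥ Pi.single 0 1)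
        rw [h3, one_mul, Unitary.conj_apply] at h4
        exact h4.symm
      obtain ⟨a, ha⟩ := Unitary.exists_norm_eq hq' (μ := (μ : F₀)⁻¹) (by rw [inv_pow, h2])
      have ha0 : a ≠ 0 := fun h0 => inv_ne_zero μ.ne_zero (by rw [← ha, h0]; simp)
      refine ⟨sc (Fin 3) (Units.mk0 a ha0) * y, fun u v => (hsc _ y u v).trans ?_,
        by rw [map_mul, glEmb_sc, mk_sc_mul, e]⟩
      rw [hμ, Units.val_mk0, ha, inv_mul_cancel_left₀ μ.ne_zero]) with
    ht | ⟨hi, h3, c, hc1, hc2⟩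
  · exact Or.inl ⟨⟨m, hα⟩, (h.equiv_of_top ht).map fun e => e.trans e2⟩
  · obtain ⟨j, rfl⟩ := three_dvd_degree hm hQ h3 (by omega) hc1 hc2
    exact Or.inr ⟨h3, ⟨j, by rw [hα]; ring⟩, im π P, hi, h.equiv.map fun e => e.trans e2⟩

theorem Hyp.caseO [Fintype F] (h : Hyp π P) (hO : IsO P) {p α : ℕ} [hp : Fact p.Prime] (hp2 : p ≠ 2)
    [CharP F p] (hF : Fintype.card F = p ^ α) :
    (∃ (K : Type) (_ : Field K) (_ : Fintype K) (β : ℕ), Fintype.card K = p ^ β ∧ β ∣ α ∧ p ^ β ≠ 3 ∧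
      (Nonempty (G ≃* PSL(2, K)) ∨ Nonempty (G ≃* PGL(2, K)))) ∨
    ((p ^ α % 10 = 1 ∨ p ^ α % 10 = 9) ∧ Nonempty (G ≃* alternatingGroup (Fin 5))) := by
  obtain ⟨Q, hQ, hfix⟩ := hO
  have hodd : Odd (p ^ α) := (hp.out.odd_of_ne_two hp2).pow
  have h2 : (2 : F) ≠ 0 := odd_card_iff.1 (hF ▸ hodd)
  have hle := (le_similarityGroup_bilin h.qs.env_top h.nrm' hQ.polar_bilinear hQ.nondegenerate
    (fixesForm_polar hfix)).trans (similarityGroup_polar_le hQ h2)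
  obtain ⟨f, hf⟩ := exists_hom_pgl2' hQ h.inj fun g => by
    obtain ⟨x, -, e⟩ := h.sl g
    exact ⟨x, hle ⟨g, e⟩, e⟩
  have e : G ≃* f.range := MonoidHom.ofInjective hf
  rcases Dickson.not_isSolvable_cases p (G := f.range)
    (fun hs => h.not_solvable (Dickson.isSolvable_of_equiv ⟨e⟩ hs)) with ⟨-, h5, hA⟩ | ⟨K, k, h4, hK⟩
  · refine Or.inr ⟨?_, hA.map fun e' => e.trans e'⟩
    have h1 := Dickson.exists_A5_iff.1 ⟨_, hA⟩
    rw [Nat.card_eq_fintype_card, hF] at h1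
    have h3 : ¬ 5 ∣ p ^ α := fun hd =>
      h5 ((Nat.prime_dvd_prime_iff_eq Nat.prime_five hp.out).1
        (Nat.prime_five.dvd_of_dvd_pow hd)).symm
    have h6 := ((Nat.Prime.dvd_mul Nat.prime_five).1 h1).resolve_left h3
    obtain ⟨t, ht⟩ := hodd
    rw [ht] at h6 ⊢
    have h7 : (2 * t + 1) ^ 2 - 1 = 4 * (t * (t + 1)) := by
      rw [Nat.sub_eq_iff_eq_add (Nat.one_le_pow _ _ (by omega))]; ring
    rw [h7] at h6
    have h8 := (Nat.Prime.dvd_mul Nat.prime_five).1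
      (((Nat.Prime.dvd_mul Nat.prime_five).1 h6).resolve_left (by norm_num))
    omega
  · obtain ⟨β, m, hβ, hα, -⟩ := card_subfield hp.out hF K
    obtain ⟨K₀, _, _, hK₀, eK⟩ := Dickson.exists_type_field K
    refine Or.inl ⟨K₀, inferInstance, inferInstance, β, hK₀.trans hβ, ⟨m, hα⟩, by omega, ?_⟩
    rcases hK with hK | ⟨-, hK⟩
    · exact Or.inr ((Dickson.pglSub_equiv' eK k).map fun e' =>
        (e.trans (MulEquiv.subgroupCongr hK)).trans e')
    · exact Or.inl ((Dickson.pslSub_equiv' eK k).map fun e' =>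
        (e.trans (MulEquiv.subgroupCongr hK)).trans e')

end CfsgLib.Mit.Bloom
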