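import Mathlib
import Cfsg.Agent.Lib.Mit.BloomB
import Cfsg.Agent.Lib.Mit.Norm
import Cfsg.Agent.S0253
import Cfsg.Agent.S0255

/-! Bloom's theorem.  See `plans/MITCHELL.md`. -/

set_option autoImplicit false

namespace CfsgLib.Mit.Bloom

open Matrix Cfsg Cfsg.Geo CfsgLib.Asch
open scoped MatrixGroups commutatorElement

variable {G : Type*} [Group G] {F : Type*} [Field F] [Fintype F] {π : G →* PGL(3, F)}
  {P : Subgroup (GL (Fin 3) F)}

theorem isO_of_real (hP : QS P) (h2 : (2 : F) ≠ 0) (h : ∀ x ∈ P, tr x⁻¹ = tr x) : IsO P := by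
  obtain ⟨f, hfix, hf | hf⟩ := exists_bilin_of_trace hP.env_top h
  · exact ⟨_, quadratic_of_symm hf h2, fun s hs v => hfix s hs v v⟩
  · exact absurd (even_card_of_symplectic hf) (by decide)

theorem isO_of_L32 (hP : QS P) (h : BarL32 P) (h2 : (2 : F) ≠ 0) (h7 : (7 : F) = 0) : IsO P := by
  obtain ⟨a, ha⟩ := trL32 hP h
  have h3 : a = 3 := by
    have : (a - 3) ^ 2 = 0 := by linear_combination ha.root + (1 - a) * h7
    exact sub_eq_zero.1 (pow_eq_zero_iff two_ne_zero |>.1 this)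
  have h4 : -1 - a = a := by rw [h3]; linear_combination (-1 : F) * h7
  refine isO_of_real hP h2 fun x hx => ?_
  rcases ha.all x hx with h | h | h
  · exact h.2
  · rw [h.1, h.2, h4]
  · rw [h.1, h.2, h4]

theorem zmod7 : (¬ ∃ r : ZMod 7, -1 = r * r) ∧
    ∀ x : ZMod 7, x ≠ 0 → (∃ r, x = r * r) → x ^ 3 = 1 := by decide

/-- if `-7` is a square then `q` is a square modulo `7` -/
theorem cube_mod_seven (h2 : (2 : F) ≠ 0) (h7 : (7 : F) ≠ 0) {a : F} (ha : a ^ 2 + a + 2 = 0) :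
    Fintype.card F ^ 3 % 7 = 1 := by
  classical
  have : Fact (Nat.Prime 7) := ⟨by norm_num⟩
  have c2 : ringChar F ≠ 2 := fun h => h2 (by exact_mod_cast (ringChar.spec F 2).2 (h ▸ dvd_rfl))
  have c7 : ringChar F ≠ 7 := fun h => h7 (by exact_mod_cast (ringChar.spec F 7).2 (h ▸ dvd_rfl))
  have h1 := quadraticChar_card_card c2 (F' := ZMod 7) (by rw [ZMod.ringChar_zmod_n]; norm_num)
    (by rw [ZMod.ringChar_zmod_n]; exact c7.symm)
  rw [ZMod.card] at h1
  have h3 : quadraticChar F (-1) * quadraticChar F ((7 : ℕ) : F) = 1 := by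
    rw [← map_mul, show (-1 : F) * ((7 : ℕ) : F) = (2 * a + 1) ^ 2 by
      push_cast; linear_combination (-4 : F) * ha]
    refine quadraticChar_sq_one' fun h => h7 ?_
    linear_combination 4 * ha - (2 * a + 1) * h
  rw [h1] at h3
  have h4 : quadraticChar (ZMod 7) (Fintype.card F : ZMod 7) = 1 := by
    have hm : quadraticChar (ZMod 7) (-1) = -1 := by
      rw [quadraticChar_neg_one_iff_not_isSquare]
      exact zmod7.1
    rcases quadraticChar_dichotomy (F := F) (a := -1) (by simp) with h | h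
    · simpa [h] using h3
    · rw [h] at h3
      push_cast at h3
      rw [map_mul, hm] at h3
      linarith
  have h0 : (Fintype.card F : ZMod 7) ≠ 0 := fun h => by rw [h] at h4; simp at h4
  have h6 := zmod7.2 _ h0 ((quadraticChar_one_iff_isSquare h0).1 h4)
  have h8 : ((Fintype.card F ^ 3 : ℕ) : ZMod 7) = ((1 : ℕ) : ZMod 7) := by push_cast; exact h6
  exact (ZMod.natCast_eq_natCast_iff' _ _ _).1 h8

theorem mod_three_of_omega (h3 : (3 : F) ≠ 0) {w : F} (hw : w ^ 2 + w + 1 = 0) :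
    Fintype.card F % 3 = 1 := by
  have : Fact (Nat.Prime 3) := ⟨Nat.prime_three⟩
  have h0 : w ≠ 0 := fun h => by simp [h] at hw
  have ho : orderOf w = 3 := orderOf_eq_prime (by linear_combination (w - 1) * hw) fun h => h3 (by
    rw [h] at hw; linear_combination hw)
  have h1 := orderOf_dvd_of_pow_eq_one (FiniteField.pow_card_sub_one_eq_one w h0)
  rw [ho] at h1
  have : 0 < Fintype.card F := Fintype.card_pos
  omega

theorem mod_five_of_tau (h5 : ¬ 5 ∣ Fintype.card F) {t : F} (ht : t ^ 2 = t + 1) :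
    Fintype.card F % 5 = 1 ∨ Fintype.card F % 5 = 4 := by
  have h1 := Dickson.exists_root_iff_five_dvd.1 ⟨t + 1, by linear_combination ht⟩
  rw [Nat.card_eq_fintype_card] at h1
  have h6 := ((Nat.Prime.dvd_mul Nat.prime_five).1 h1).resolve_left h5
  obtain ⟨n, hn⟩ : ∃ n, Fintype.card F = n + 1 := ⟨_, (Nat.succ_pred_eq_of_pos Fintype.card_pos).symm⟩
  have h7 : (n + 1) ^ 2 - 1 = n * (n + 2) := by
    rw [Nat.sub_eq_iff_eq_add (Nat.one_le_pow _ _ (by omega))]; ring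
  rw [hn, h7] at h6
  have := (Nat.Prime.dvd_mul Nat.prime_five).1 h6
  omega

theorem even_of_five_pow {n : ℕ} (h : 5 ^ n % 3 = 1) : Even n := by
  by_contra hn
  obtain ⟨k, rfl⟩ := Nat.not_even_iff_odd.1 hn
  rw [pow_succ, pow_mul, Nat.mul_mod, Nat.pow_mod] at h
  simp at h

theorem natCast_eq_zero_iff {p : ℕ} [hp : Fact p.Prime] [CharP F p] {r : ℕ} (hr : r.Prime) :
    (r : F) = 0 ↔ p = r := by
  rw [CharP.cast_eq_zero_iff F p, Nat.prime_dvd_prime_iff_eq hp.out hr]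

/-- **Bloom's theorem** for an abstract group -/
theorem bloom (hQ : Q3Stmt F) [Finite G] [Nontrivial G] (p α : ℕ) [hp : Fact p.Prime] (hp2 : p ≠ 2)
    (hF : Fintype.card F = p ^ α) (hπ : Function.Injective π)
    (hsl : ∀ g, ∃ x : GL (Fin 3) F, (x : M3 F).det = 1 ∧ π g = ProjGenLinGroup.mk x)
    (hN : ∀ N : Subgroup G, N.Normal → IsMulCommutative N → (∃ r : ℕ, r.Prime ∧ ∀ x ∈ N, x ^ r = 1) →
      N = ⊥) :
    (∃ (K : Type) (_ : Field K) (_ : Fintype K) (β : ℕ), Fintype.card K = p ^ β ∧ β ∣ α ∧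
      Nonempty (G ≃* PSL(3, K))) ∨
    (∃ (K : Type) (_ : Field K) (_ : Fintype K) (β : ℕ), Fintype.card K = p ^ (2 * β) ∧ 2 * β ∣ α ∧
      Nonempty (G ≃* PSU 3 K (p ^ β))) ∨
    (∃ (K : Type) (_ : Field K) (_ : Fintype K) (β : ℕ), Fintype.card K = p ^ β ∧ 3 ∣ p ^ β - 1 ∧
      3 * β ∣ α ∧ ∃ L : Subgroup G, L.index = 3 ∧ Nonempty (L ≃* PSL(3, K))) ∨
    (∃ (K : Type) (_ : Field K) (_ : Fintype K) (β : ℕ), Fintype.card K = p ^ (2 * β) ∧
      3 ∣ p ^ β + 1 ∧ 6 * β ∣ α ∧ ∃ L : Subgroup G, L.index = 3 ∧ Nonempty (L ≃* PSU 3 K (p ^ β))) ∨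
    (∃ (K : Type) (_ : Field K) (_ : Fintype K) (β : ℕ), Fintype.card K = p ^ β ∧ β ∣ α ∧ p ^ β ≠ 3 ∧
      (Nonempty (G ≃* PSL(2, K)) ∨ Nonempty (G ≃* PGL(2, K)))) ∨
    ((p ^ α % 10 = 1 ∨ p ^ α % 10 = 9) ∧ ∃ (K : Type) (_ : Field K) (_ : Fintype K),
      Fintype.card K = 5 ∧ Nonempty (G ≃* PSL(2, K))) ∨
    ((p ^ α) ^ 3 % 7 = 1 ∧ ∃ (K : Type) (_ : Field K) (_ : Fintype K),
      Fintype.card K = 7 ∧ Nonempty (G ≃* PSL(2, K))) ∨
    (p = 5 ∧ Even α ∧ (Nonempty (G ≃* alternatingGroup (Fin 6)) ∨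
      Nonempty (G ≃* alternatingGroup (Fin 7)) ∨
      ∃ L : Subgroup G, L.index = 2 ∧ Nonempty (L ≃* alternatingGroup (Fin 6)))) ∨
    ((p ^ α % 30 = 1 ∨ p ^ α % 30 = 19) ∧ Nonempty (G ≃* alternatingGroup (Fin 6))) := by
  have hodd : Odd (p ^ α) := (hp.out.odd_of_ne_two hp2).pow
  have h2 : (2 : F) ≠ 0 := odd_card_iff.1 (hF ▸ hodd)
  have : CharP F p := by
    obtain ⟨r, hr⟩ := CharP.exists F
    obtain ⟨n, hrp, hn⟩ := FiniteField.card F r
    have : r ∣ p ^ α := by rw [← hF, hn]; exact dvd_pow_self _ n.ne_zero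
    rwa [← (Nat.prime_dvd_prime_iff_eq hrp hp.out).1 (hrp.dvd_of_dvd_pow this)]
  obtain ⟨L, hs, hn, hperf, hL⟩ := exists_simple hN
  obtain ⟨P, hP, hle, hnrm⟩ := exists_core h2 hπ hs hn hperf hL
  have h : Hyp π P := ⟨hπ, hsl, hP, hle, hnrm⟩
  have : Fact (Nat.Prime 5) := ⟨Nat.prime_five⟩
  have : Fact (Nat.Prime 7) := ⟨by norm_num⟩
  suffices H : IsO P ∨ _ by
    rcases H with H | H
    · rcases h.caseO H hp2 hF with h1 | ⟨h1, ⟨e⟩⟩
      · exact .inr (.inr (.inr (.inr (.inl h1))))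
      · exact .inr (.inr (.inr (.inr (.inr (.inl ⟨h1, ZMod 5, inferInstance, inferInstance,
          ZMod.card 5, (Cfsg.Agent.S0253.result (ZMod.card 5)).map fun e' => e.trans e'.symm⟩)))))
    · exact H
  rcases hQ P hP with h1 | h1 | h1 | h1 | h1 | h1
  · obtain ⟨K, _, _, β, hK, h3 | h3⟩ := h.caseL h1 hp.out hF
    · exact .inr (.inl ⟨K, inferInstance, inferInstance, β, hK, h3⟩)
    · exact .inr (.inr (.inr (.inl ⟨K, inferInstance, inferInstance, β, hK, h3⟩)))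
  · obtain ⟨K, _, _, β, hK, h3 | h3⟩ := h.caseU h1 hp.out hF
    · exact .inr (.inr (.inl ⟨K, inferInstance, inferInstance, β, hK, h3⟩))
    · exact .inr (.inr (.inr (.inr (.inl ⟨K, inferInstance, inferInstance, β, hK, h3⟩))))
  · exact .inl h1
  · by_cases h7 : (7 : F) = 0
    · exact .inl (isO_of_L32 hP h1 h2 h7)
    · obtain ⟨a, ha⟩ := trL32 hP h1
      obtain ⟨e1⟩ := h.equiv_of_norm fun x hx => normL32 hP h1 h7 hx
      obtain ⟨e2⟩ := h1
      refine .inr (.inr (.inr (.inr (.inr (.inr (.inr (.inl ⟨hF ▸ cube_mod_seven h2 h7 ha.root,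
        ZMod 7, inferInstance, inferInstance, ZMod.card 7, ?_⟩)))))))
      exact (Cfsg.Agent.S0255.result (ZMod.card 7) (ZMod.card 2)).map fun e' =>
        (e1.trans e2).trans e'.symm
  · by_cases h3 : (3 : F) = 0
    · exact .inl (isO_of_A6 hP h1 h3)
    obtain ⟨w, t, hw⟩ := trA6 hP h1 h3
    have m3 := mod_three_of_omega h3 hw.omega
    rw [hF] at m3
    obtain ⟨e2⟩ := id h1
    by_cases h5 : p = 5
    · refine .inr (.inr (.inr (.inr (.inr (.inr (.inr (.inr (.inl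
        ⟨h5, even_of_five_pow (h5 ▸ m3), ?_⟩))))))))
      rcases idx2 (N := im π P) (fun a b => by
        obtain ⟨x, -, ex⟩ := hsl a
        obtain ⟨y, -, ey⟩ := hsl b
        refine (normA6' hP h1 h3 (hnrm a x ex) (hnrm b y ey)).imp (mem_im_of_mem_sup ex)
          (Or.imp (mem_im_of_mem_sup ey) (mem_im_of_mem_sup ?_))
        rw [map_mul, map_mul, map_inv, map_inv, ex, ey]) with ht | hi
      · exact .inl ((h.equiv_of_top ht).map fun e => e.trans e2)
      · exact .inr (.inr ⟨_, hi, h.equiv.map fun e => e.trans e2⟩)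
    · have h5' : (5 : F) ≠ 0 := fun h0 =>
        h5 ((natCast_eq_zero_iff Nat.prime_five).1 (by exact_mod_cast h0))
      have m5 := mod_five_of_tau (fun hd => h5 ((Nat.prime_dvd_prime_iff_eq Nat.prime_five hp.out).1
        (Nat.prime_five.dvd_of_dvd_pow (hF ▸ hd))).symm) hw.tau
      rw [hF] at m5
      obtain ⟨k, hk⟩ := hodd
      exact .inr (.inr (.inr (.inr (.inr (.inr (.inr (.inr (.inr ⟨by omega,
        (h.equiv_of_norm fun x hx => normA6 hP h1 h3 h5' hx).map fun e => e.trans e2⟩))))))))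
  · obtain ⟨w, hw⟩ := trA7 hP h1
    have h5 : p = 5 := (natCast_eq_zero_iff Nat.prime_five).1 (by exact_mod_cast hw.five)
    have h3 : (3 : F) ≠ 0 := fun h0 => h2 (by linear_combination hw.five - h0)
    have m3 := mod_three_of_omega h3 hw.omega
    rw [hF] at m3
    obtain ⟨e2⟩ := id h1
    exact .inr (.inr (.inr (.inr (.inr (.inr (.inr (.inr (.inl ⟨h5, even_of_five_pow (h5 ▸ m3),
      .inr (.inl ((h.equiv_of_norm fun x hx => normA7 hP h1 hx).map fun e => e.trans e2))⟩))))))))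

end CfsgLib.Mit.Bloom
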